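import Cfsg.Agent.FusionBatch.AbelianLayers
import Cfsg.Agent.FusionBatch.Basic
import Cfsg.Agent.FusionAux.CyclicExtension
import Mathlib.Algebra.QuadraticAlgebra.Basic
import Mathlib.Algebra.CharP.Lemmas
import Mathlib.FieldTheory.Finite.Basic
import Mathlib.GroupTheory.FiniteAbelian.Basic

/-!
Abelian `p`-groups all of whose saturated fusion systems have a chain of strongly closed subgroups
with cyclic factors.
-/

set_option autoImplicit false
set_option maxHeartbeats 400000

open Cfsg Cfsg.FusionSystem Cfsg.Agent.FusionSys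
open scoped QuadraticAlgebra

namespace Cfsg.Agent.FusionBatch.AbelianSuper

section Distinct

variable {M : Type*} [Group M] [Finite M] {p : ℕ} [hp : Fact p.Prime] {n : ℕ} {a : Fin n → ℕ}

/-- A proper characteristic subgroup extends by one element to a characteristic subgroup. -/
theorem exists_step (ha : Function.Injective a) (e : M ≃* Multiplicative ((i : Fin n) → ZMod (p ^ a i)))
    {c : Subgroup M} (hc : c.Characteristic) (hne : c ≠ ⊤) :
    ∃ x : M, x ∉ c ∧ (c ⊔ Subgroup.zpowers x).Characteristic := by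
  classical
  set N := ∑ i, a i
  have hN : ∀ i, a i ≤ N := fun i => Finset.single_le_sum (fun j _ => Nat.zero_le (a j)) (Finset.mem_univ i)
  have hcomm : ∀ x y : M, Commute x y := fun x y => e.injective (by rw [map_mul, map_mul, mul_comm])
  have htop : ∀ x : M, x ^ p ^ N = 1 := fun x => AbelianLayers.div_zero_of_large e hN ⟨x, rfl⟩
  have hex : ∃ j, ∃ y : M, y ^ p ^ j = 1 ∧ y ∉ c := by
    obtain ⟨y, hy⟩ : ∃ y, y ∉ c := by
      by_contra h
      push Not at h
      exact hne ((Subgroup.eq_top_iff' c).2 h)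
    exact ⟨N, y, htop y, hy⟩
  obtain ⟨j, ⟨y₀, hy₀, hy₀c⟩, hmin⟩ : ∃ j, (∃ y : M, y ^ p ^ j = 1 ∧ y ∉ c) ∧
      ∀ j' < j, ∀ y : M, y ^ p ^ j' = 1 → y ∈ c :=
    ⟨Nat.find hex, Nat.find_spec hex, fun j' hj' y hy => by
      by_contra h
      exact Nat.find_min hex hj' ⟨y, hy, h⟩⟩
  obtain ⟨i, rfl⟩ : ∃ i, j = i + 1 := ⟨j - 1, by
    rcases j with _ | j
    · exact absurd (by simpa using hy₀ : y₀ = 1) fun h => hy₀c (h ▸ c.one_mem)
    · omega⟩
  set W : Set M := {y | y ^ p ^ (i + 1) = 1 ∧ y ∉ c}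
  obtain ⟨k, ⟨x, hxW, hxk⟩, hmax⟩ : ∃ k, (∃ x ∈ W, AbelianLayers.Div p k (x ^ p ^ i)) ∧
      ∀ y ∈ W, ¬ AbelianLayers.Div p (k + 1) (y ^ p ^ i) := by
    by_contra h
    push Not at h
    have : ∀ k, ∃ x ∈ W, AbelianLayers.Div p k (x ^ p ^ i) := by
      intro k
      induction k with
      | zero => exact ⟨y₀, ⟨hy₀, hy₀c⟩, y₀ ^ p ^ i, by simp⟩
      | succ k ih => obtain ⟨x, hx, hxk⟩ := ih; exact h k ⟨x, hx, hxk⟩
    obtain ⟨x, hx, hxk⟩ := this N
    exact hx.2 (hmin i (Nat.lt_succ_self i) x (AbelianLayers.div_zero_of_large e hN hxk))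
  refine ⟨x, hxW.2, ?_⟩
  rw [Subgroup.characteristic_iff_map_le]
  intro φ
  rw [Subgroup.map_sup, MonoidHom.map_zpowers]
  refine sup_le ((Subgroup.characteristic_iff_map_le.1 hc φ).trans le_sup_left)
    (Subgroup.zpowers_le.2 ?_)
  change φ x ∈ _
  obtain ⟨m, hm⟩ := AbelianLayers.layer_step ha e (x := x ^ p ^ i) (z := φ x ^ p ^ i)
    (by rw [← pow_mul, ← pow_succ]; exact hxW.1) hxk (hmax x hxW)
    (by rw [← pow_mul, ← pow_succ, ← map_pow, hxW.1, map_one])
    (by rw [← map_pow]; exact AbelianLayers.div_map φ hxk)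
  have hz : φ x * x ^ m ∈ c := by
    by_contra hzc
    refine hmax (φ x * x ^ m) ⟨?_, hzc⟩ ?_
    · rw [(hcomm _ _).mul_pow, ← map_pow, hxW.1, map_one, one_mul, ← pow_mul, mul_comm, pow_mul,
        hxW.1, one_pow]
    · rwa [(hcomm _ _).mul_pow, ← pow_mul, mul_comm m, pow_mul]
  have h2 : φ x = (φ x * x ^ m) * (x ^ m)⁻¹ := by simp
  rw [h2]
  exact Subgroup.mul_mem _ (Subgroup.mem_sup_left hz)
    (Subgroup.mem_sup_right (inv_mem (Subgroup.npow_mem_zpowers x m)))

/-- A chain of characteristic subgroups with cyclic factors. -/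
theorem exists_chain (ha : Function.Injective a) (e : M ≃* Multiplicative ((i : Fin n) → ZMod (p ^ a i))) :
    ∀ (r : ℕ) (c₀ : Subgroup M), c₀.Characteristic → c₀.index ≤ r →
      ∃ (m : ℕ) (c : Fin (m + 1) → Subgroup M), c 0 = c₀ ∧ c (Fin.last m) = ⊤ ∧
        (∀ i, (c i).Characteristic) ∧
        ∀ i : Fin m, c i.castSucc ≤ c i.succ ∧ ∃ x, c i.succ = c i.castSucc ⊔ Subgroup.zpowers x := by
  intro r
  induction r with
  | zero =>
    intro c₀ _ h
    have := Subgroup.index_ne_zero_of_finite (H := c₀)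
    omega
  | succ r ih =>
    intro c₀ hc₀ h
    by_cases htop : c₀ = ⊤
    · exact ⟨0, fun _ => c₀, rfl, htop, fun _ => hc₀, fun i => i.elim0⟩
    obtain ⟨x, hx, hchar⟩ := exists_step ha e hc₀ htop
    have hlt : c₀ < c₀ ⊔ Subgroup.zpowers x :=
      lt_of_le_of_ne le_sup_left fun h' => hx (h' ▸ Subgroup.mem_sup_right (Subgroup.mem_zpowers x))
    have hidx : (c₀ ⊔ Subgroup.zpowers x).index ≤ r := by
      have h1 := Subgroup.index_strictAnti hlt
      omega
    obtain ⟨m, c, h0, hl, hch, hstep⟩ := ih _ hchar hidx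
    refine ⟨m + 1, Fin.cons c₀ c, rfl, ?_, ?_, ?_⟩
    · rw [← Fin.succ_last, Fin.cons_succ, hl]
    · intro i
      induction i using Fin.cases with
      | zero => exact hc₀
      | succ i => rw [Fin.cons_succ]; exact hch i
    · intro i
      induction i using Fin.cases with
      | zero =>
        rw [Fin.castSucc_zero, Fin.cons_zero, Fin.cons_succ, h0]
        exact ⟨le_sup_left, x, rfl⟩
      | succ i => rw [← Fin.succ_castSucc, Fin.cons_succ, Fin.cons_succ]; exact hstep i

end Distinct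

variable {Ω : Type*} [Group Ω] {S : Subgroup Ω} [Finite S] {p : ℕ} [hp : Fact p.Prime]

/-- Distinct invariants: every saturated system has a chain of strongly closed subgroups. -/
theorem chain_of_distinct (hS : IsPGroup p S) {n : ℕ} {a : Fin n → ℕ} (ha : Function.Injective a)
    (e : S ≃* Multiplicative ((i : Fin n) → ZMod (p ^ a i))) (F : FusionSystem S)
    (hF : F.IsSaturated p) :
    ∃ (m : ℕ) (c : Fin (m + 1) → Subgroup Ω), c 0 = ⊥ ∧ c (Fin.last m) = S ∧
      (∀ i : Fin (m + 1), F.StronglyClosed (c i)) ∧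
      ∀ i : Fin m, c i.castSucc ≤ c i.succ ∧
        ∃ x ∈ S, c i.succ = c i.castSucc ⊔ Subgroup.zpowers x := by
  obtain ⟨m, c, h0, hl, hch, hstep⟩ := exists_chain ha e _ ⊥ inferInstance le_rfl
  have hab : ∀ x ∈ S, ∀ y ∈ S, x * y = y * x := fun x hx y hy =>
    congrArg Subtype.val (e.injective (by rw [map_mul, map_mul, mul_comm]) :
      (⟨x, hx⟩ : S) * ⟨y, hy⟩ = ⟨y, hy⟩ * ⟨x, hx⟩)
  refine ⟨m, fun i => (c i).map S.subtype, ?_, ?_, fun i => ⟨Subgroup.map_subtype_le _, ?_⟩,
    fun i => ⟨Subgroup.map_mono (hstep i).1, ?_⟩⟩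
  · simp [h0]
  · simp [hl, ← MonoidHom.range_eq_map]
  · intro R hR φ hφ x
    obtain ⟨α, -, hα⟩ := abelian_extends hS hF hab hφ
    obtain ⟨s, hs, hsx⟩ := hR x.2
    refine ⟨α s, (Subgroup.characteristic_iff_map_le.1 (hch i) α) ⟨s, hs, rfl⟩, ?_⟩
    rw [hα x]
    exact congrArg (fun t : S => ((α t : S) : Ω)) (Subtype.ext hsx)
  · obtain ⟨x, hx⟩ := (hstep i).2
    refine ⟨x, x.2, ?_⟩
    show (c i.succ).map S.subtype = (c i.castSucc).map S.subtype ⊔ _
    rw [hx, Subgroup.map_sup, MonoidHom.map_zpowers]; rfl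

/-- The two coefficients of a quadratic without roots modulo `p`. -/
theorem exists_no_root (p : ℕ) [Fact p.Prime] :
    ∃ a b : ℕ, b ≠ 0 ∧ ¬ p ∣ b ∧ ∀ c : ZMod p, c * c ≠ a * c + b := by
  by_cases hp2 : p = 2
  · subst hp2
    refine ⟨1, 1, one_ne_zero, by norm_num, ?_⟩
    decide +revert
  · obtain ⟨w, hw⟩ := FiniteField.exists_nonsquare (F := ZMod p) (by rw [ZMod.ringChar_zmod_n]; exact hp2)
    have hw0 : w ≠ 0 := fun h => hw (h ▸ IsSquare.zero)
    refine ⟨0, w.val, fun h => hw0 ((ZMod.val_eq_zero w).1 h), fun h => ?_, fun c h => hw ⟨c, ?_⟩⟩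
    · exact hw0 (by rw [← ZMod.natCast_zmod_val w, (ZMod.natCast_eq_zero_iff _ _).2 h])
    · rw [h]; simp

/-- The quadratic algebra over `ℤ/m` with `ω² = b + a ω`. -/
abbrev Quad (m a b : ℕ) : Type := QuadraticAlgebra (ZMod m) (b : ZMod m) (a : ZMod m)

/-- A pair of equal invariants: some saturated system has no such chain. -/
theorem no_chain_of_repeat (hS : IsPGroup p S) {n : ℕ} (hn : 0 < n) {H : Type*} [CommGroup H]
    (e : S ≃* (Multiplicative (ZMod (p ^ n)) × Multiplicative (ZMod (p ^ n))) × H) :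
    ∃ F : FusionSystem S, F.IsSaturated p ∧
      ¬ ∃ (m : ℕ) (c : Fin (m + 1) → Subgroup Ω), c 0 = ⊥ ∧ c (Fin.last m) = S ∧
        (∀ i : Fin (m + 1), F.StronglyClosed (c i)) ∧
        ∀ i : Fin m, c i.castSucc ≤ c i.succ ∧
          ∃ x ∈ S, c i.succ = c i.castSucc ⊔ Subgroup.zpowers x := by
  obtain ⟨a, b, -, hb, hroot⟩ := exists_no_root p
  haveI : NeZero (p ^ n) := ⟨pow_ne_zero _ hp.out.ne_zero⟩
  haveI : Finite (Quad (p ^ n) a b) := Finite.of_equiv _ (QuadraticAlgebra.equivProd _ _).symm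
  haveI : Module.Free (ZMod p) (Quad p a b) := inferInstance
  haveI : CharP (Quad p a b) p := charP_of_injective_algebraMap (R := ZMod p)
    (fun u v h => by simpa using congrArg QuadraticAlgebra.re h) p
  let cast : ZMod (p ^ n) →+* ZMod p := ZMod.castHom (dvd_pow_self p hn.ne') (ZMod p)
  let red : (Quad (p ^ n) a b) →+* (Quad p a b) :=
    { toFun := fun z => ⟨cast z.re, cast z.im⟩
      map_one' := by ext <;> simp
      map_mul' := fun u v => by ext <;> simp
      map_zero' := by ext <;> simp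
      map_add' := fun u v => by ext <;> simp }
  have hbu : IsUnit (b : ZMod (p ^ n)) := by
    rw [ZMod.isUnit_iff_coprime]
    exact Nat.Coprime.pow_right _ ((hp.out.coprime_iff_not_dvd).2 hb).symm
  obtain ⟨bu, hbu⟩ := hbu
  have hω : (QuadraticAlgebra.omega : (Quad (p ^ n) a b)) * ((bu⁻¹ : (ZMod (p ^ n))ˣ) •
      ((QuadraticAlgebra.omega : (Quad (p ^ n) a b)) - algebraMap _ (Quad (p ^ n) a b) (a : ZMod (p ^ n)))) = 1 := by
    ext <;> simp [QuadraticAlgebra.omega, Units.smul_def, ← hbu]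
  let w : (Quad (p ^ n) a b)ˣ := Units.mkOfMulEqOne _ _ hω
  haveI : Finite (Quad (p ^ n) a b)ˣ := inferInstance
  obtain ⟨f, m, hm, hfm⟩ := Nat.exists_eq_pow_mul_and_not_dvd (orderOf_pos w).ne' p hp.out.ne_one
  let u : (Quad (p ^ n) a b)ˣ := w ^ p ^ f
  have hu : u ^ m = 1 := by rw [← pow_mul, ← hfm, pow_orderOf_eq_one]
  have hum : ¬ p ∣ orderOf u := fun h => hm (h.trans (orderOf_dvd_of_pow_eq_one hu))
  have hubar : red (u : (Quad (p ^ n) a b)) * red (u : (Quad (p ^ n) a b)) =
      algebraMap (ZMod p) (Quad p a b) (a : ZMod p) * red (u : (Quad (p ^ n) a b)) + algebraMap (ZMod p) (Quad p a b) (b : ZMod p) := by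
    have h1 : red (QuadraticAlgebra.omega : (Quad (p ^ n) a b)) * red (QuadraticAlgebra.omega : (Quad (p ^ n) a b)) =
        algebraMap (ZMod p) (Quad p a b) (a : ZMod p) * red (QuadraticAlgebra.omega : (Quad (p ^ n) a b)) +
          algebraMap (ZMod p) (Quad p a b) (b : ZMod p) := by
      ext <;> simp [red, QuadraticAlgebra.omega]
    have h2 := congrArg (fun z : (Quad p a b) => z ^ p ^ f) h1
    simp only [add_pow_char_pow, mul_pow, ← map_pow, ZMod.pow_card_pow] at h2
    exact h2
  -- the automorphism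
  let eR : (Quad (p ^ n) a b) ≃+ ZMod (p ^ n) × ZMod (p ^ n) :=
    { QuadraticAlgebra.equivProd _ _ with map_add' := fun _ _ => rfl }
  let e' : S ≃* Multiplicative (Quad (p ^ n) a b) × H := e.trans (MulEquiv.prodCongr
    ((MulEquiv.prodMultiplicative (ZMod (p ^ n)) (ZMod (p ^ n))).symm.trans eR.symm.toMultiplicative) (MulEquiv.refl H))
  let act : (Quad (p ^ n) a b)ˣ →* MulAut (Multiplicative (Quad (p ^ n) a b) × H) :=
    { toFun := fun v => MulEquiv.prodCongr (AddEquiv.toMultiplicative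
        { Units.mulLeft v with map_add' := fun y z => mul_add (v : (Quad (p ^ n) a b)) y z }) (MulEquiv.refl H)
      map_one' := by
        ext x
        · exact congrArg QuadraticAlgebra.re (one_mul (Multiplicative.toAdd x.1))
        · exact congrArg QuadraticAlgebra.im (one_mul (Multiplicative.toAdd x.1))
        · rfl
      map_mul' := fun v v' => by
        ext x
        · exact congrArg QuadraticAlgebra.re (mul_assoc (v : (Quad (p ^ n) a b)) v' (Multiplicative.toAdd x.1))
        · exact congrArg QuadraticAlgebra.im (mul_assoc (v : (Quad (p ^ n) a b)) v' (Multiplicative.toAdd x.1))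
        · rfl }
  let β : MulAut S := (e'.trans (act u)).trans e'.symm
  have hβm : ∀ k : ℕ, β ^ k = (e'.trans (act (u ^ k))).trans e'.symm := by
    intro k
    induction k with
    | zero => ext x; simp
    | succ k ih =>
      rw [pow_succ, ih, pow_succ, map_mul]
      ext x
      simp [β]
  have hβ : ¬ p ∣ orderOf β := fun h => hum (h.trans (orderOf_dvd_of_pow_eq_one (by
    rw [hβm, pow_orderOf_eq_one, map_one]
    ext x; simp)))
  refine ⟨FusionAux.cyclicExt β, FusionAux.cyclicExt_saturated hS β hβ, ?_⟩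
  rintro ⟨m, c, h0, hl, hsc, hstep⟩
  let π : S →* Multiplicative (Quad p a b) :=
    (AddMonoidHom.toMultiplicative red.toAddMonoidHom).comp ((MonoidHom.fst _ _).comp e'.toMonoidHom)
  have hπβ : ∀ x : S, (π (β x)).toAdd = red (u : (Quad (p ^ n) a b)) * (π x).toAdd := by
    intro x
    show red (e' (β x)).1.toAdd = red (u : (Quad (p ^ n) a b)) * red (e' x).1.toAdd
    rw [← map_mul]
    refine congrArg red ?_
    simp [β, act]
    rfl
  have key : ∀ i : Fin (m + 1), ∀ x : S, (x : Ω) ∈ c i → π x = 1 := by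
    intro i
    induction i using Fin.induction with
    | zero =>
      intro x hx
      rw [h0, Subgroup.mem_bot] at hx
      rw [show x = 1 from Subtype.ext hx, map_one]
    | succ i ih =>
      obtain ⟨y, hy, hyc⟩ := (hstep i).2
      have hle : c i.succ ≤ ((Subgroup.zpowers (π ⟨y, hy⟩)).comap π).map S.subtype := by
        rw [hyc]
        refine sup_le ?_ ?_
        · intro z hz
          have hzS : z ∈ S := (hsc i.castSucc).1 hz
          exact ⟨⟨z, hzS⟩, by rw [SetLike.mem_coe, Subgroup.mem_comap, ih ⟨z, hzS⟩ hz]; exact one_mem _, rfl⟩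
        · rw [Subgroup.zpowers_le]
          exact ⟨⟨y, hy⟩, Subgroup.mem_zpowers _, rfl⟩
      have hmem : ∀ x : S, (x : Ω) ∈ c i.succ → ∃ k : ℤ, π ⟨y, hy⟩ ^ k = π x := by
        intro x hx
        obtain ⟨z, hz, hzx⟩ := hle hx
        obtain rfl : z = x := Subtype.ext hzx
        exact Subgroup.mem_zpowers_iff.1 hz
      have hyc' : y ∈ c i.succ := hyc.symm ▸ Subgroup.mem_sup_right (Subgroup.mem_zpowers y)
      have hβy : ((β ⟨y, hy⟩ : S) : Ω) ∈ c i.succ := by
        have h := (hsc i.succ).2 _ le_rfl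
          (S.subtype.comp (β.toMonoidHom.comp (Subgroup.inclusion (hsc i.succ).1)))
          ⟨(hsc i.succ).1, 1, 1, fun x => by simp; rfl⟩ ⟨y, hyc'⟩
        exact h
      obtain ⟨k, hk⟩ := hmem _ hβy
      set v : (Quad p a b) := (π ⟨y, hy⟩).toAdd
      have hk' : algebraMap (ZMod p) (Quad p a b) (k : ZMod p) * v = red (u : (Quad (p ^ n) a b)) * v := by
        rw [← hπβ, ← hk, toAdd_zpow, map_intCast, zsmul_eq_mul]
      have hv : v = 0 := by
        set C : ZMod p := (k : ZMod p)
        have h3 : algebraMap (ZMod p) (Quad p a b) (C * C - (a * C + b)) * v = 0 := by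
          have h4 : red (u : (Quad (p ^ n) a b)) * (red (u : (Quad (p ^ n) a b)) * v) =
              algebraMap (ZMod p) (Quad p a b) C * (algebraMap (ZMod p) (Quad p a b) C * v) := by
            rw [← hk', mul_left_comm (red (u : (Quad (p ^ n) a b))), ← hk']
          rw [← mul_assoc, hubar, add_mul, mul_assoc, ← hk', ← mul_assoc] at h4
          rw [map_sub, map_add, map_mul, map_mul, sub_mul, add_mul, mul_assoc (algebraMap (ZMod p) (Quad p a b) C),
            ← h4, sub_self]
        have hne : C * C - (a * C + b) ≠ 0 := sub_ne_zero.2 (hroot C)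
        have h5 := congrArg (algebraMap (ZMod p) (Quad p a b) (C * C - (a * C + b))⁻¹ * ·) h3
        rwa [← mul_assoc, ← map_mul, inv_mul_cancel₀ hne, map_one, one_mul, mul_zero] at h5
      intro x hx
      obtain ⟨l, hl'⟩ := hmem x hx
      rw [← hl', show π ⟨y, hy⟩ = 1 from Multiplicative.toAdd.injective hv, one_zpow]
  have h1 := key (Fin.last m) (e'.symm (Multiplicative.ofAdd (1 : (Quad (p ^ n) a b)), 1)) (hl.symm ▸ SetLike.coe_mem _)
  have h2 : red (1 : (Quad (p ^ n) a b)) = 0 := by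
    have := congrArg Multiplicative.toAdd h1
    simpa [π] using this
  rw [map_one] at h2
  haveI := CharP.nontrivial_of_char_ne_one (R := (Quad p a b)) hp.out.ne_one
  exact one_ne_zero h2

/-- Equal invariants split off a square factor; otherwise the invariants are distinct. -/
theorem distinct_or_repeat {M : Type*} [CommGroup M] [Finite M] (hM : IsPGroup p M) :
    (∃ (n : ℕ) (a : Fin n → ℕ), Function.Injective a ∧
        Nonempty (M ≃* Multiplicative ((i : Fin n) → ZMod (p ^ a i)))) ∨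
      ∃ (n : ℕ) (H : Type) (_ : CommGroup H), 0 < n ∧
        Nonempty (M ≃* (Multiplicative (ZMod (p ^ n)) × Multiplicative (ZMod (p ^ n))) × H) := by
  classical
  obtain ⟨ι, hι, q, hq, ⟨f⟩⟩ := CommGroup.equiv_prod_multiplicative_zmod_of_finite M
  obtain ⟨K, hK⟩ := hM.exists_card_eq
  have hpow : ∀ i, ∃ k, 0 < k ∧ q i = p ^ k := by
    intro i
    have hd : q i ∣ p ^ K := by
      rw [← hK, Nat.card_congr f.toEquiv, Nat.card_pi]
      refine dvd_trans ?_ (Finset.dvd_prod_of_mem _ (Finset.mem_univ i))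
      rw [Nat.card_congr Multiplicative.toAdd, Nat.card_zmod]
    obtain ⟨k, -, hk⟩ := (Nat.dvd_prime_pow hp.out).1 hd
    refine ⟨k, Nat.pos_of_ne_zero fun h0 => ?_, hk⟩
    have := hq i
    rw [hk, h0, pow_zero] at this
    omega
  choose k hk0 hk using hpow
  by_cases hinj : Function.Injective k
  · left
    let σ := Fintype.equivFin ι
    refine ⟨Fintype.card ι, fun j => k (σ.symm j), hinj.comp σ.symm.injective, ⟨f.trans ?_⟩⟩
    exact ((MulEquiv.piCongrRight fun i => AddEquiv.toMultiplicative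
        (ZMod.ringEquivCongr (hk i)).toAddEquiv).trans
      (MulEquiv.piMultiplicative fun i => ZMod (p ^ k i)).symm).trans
      (AddEquiv.toMultiplicative
        { Equiv.piCongrLeft' (fun i => ZMod (p ^ k i)) σ with map_add' := fun _ _ => rfl })
  · right
    obtain ⟨i, j, hij, hne⟩ := Function.not_injective_iff.1 hinj
    refine ⟨k i, (l : {l : ι // l ≠ i ∧ l ≠ j}) → Multiplicative (ZMod (q l.1)), inferInstance, hk0 i,
      ⟨f.trans ?_⟩⟩
    let gi : Multiplicative (ZMod (q i)) ≃* Multiplicative (ZMod (p ^ k i)) :=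
      AddEquiv.toMultiplicative (ZMod.ringEquivCongr (hk i)).toAddEquiv
    let gj : Multiplicative (ZMod (q j)) ≃* Multiplicative (ZMod (p ^ k i)) :=
      AddEquiv.toMultiplicative (ZMod.ringEquivCongr (by rw [hk j, hij])).toAddEquiv
    exact
      { toFun := fun x => ((gi (x i), gj (x j)), fun l => x l.1)
        invFun := fun y l => if h : l = i then h ▸ gi.symm y.1.1 else
          if h' : l = j then h' ▸ gj.symm y.1.2 else y.2 ⟨l, h, h'⟩
        left_inv := fun x => by
          funext l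
          by_cases h : l = i
          · subst h; simp
          · by_cases h' : l = j
            · subst h'; simp [h]
            · simp [h, h']
        right_inv := fun y => by
          refine Prod.ext (Prod.ext ?_ ?_) (funext fun l => ?_)
          · simp
          · simp [Ne.symm hne]
          · simp [l.2.1, l.2.2]
        map_mul' := fun x y => by simp; rfl }

end Cfsg.Agent.FusionBatch.AbelianSuper
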